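import Cfsg.Agent.INV.W4.Model

/-! Finite facts about `D₈ ≀ C₂`. -/

set_option autoImplicit false

namespace CL.W4
open Finset

/-- `X` is elementary abelian of order 16. -/
structure E16 (X : Subgroup W) [DecidablePred (· ∈ X)] : Prop where
  sq : ∀ x ∈ X, x * x = 1
  comm : ∀ x ∈ X, ∀ y ∈ X, x * y = y * x
  card : (univ.filter (· ∈ X)).card = 16

theorem e16A : E16 A := ⟨by decide +kernel, by decide +kernel, by decide +kernel⟩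
theorem e16B : E16 B := ⟨by decide +kernel, by decide +kernel, by decide +kernel⟩
theorem e16E' : E16 E' := ⟨by decide +kernel, by decide +kernel, by decide +kernel⟩

theorem f_inv12 : ∀ y : W, y.s = true → y * y = 1 →
    (univ.filter (fun w : W => w * w = 1 ∧ w * y = y * w)).card ≤ 12 := by decide +kernel

theorem decJ : ∀ w ∈ J, ∃ p ∈ A, ∃ q ∈ B, w = p * q := by
  have : ∀ w ∈ J, (⟨⟨w.l.i, w.l.j, false⟩, ⟨w.r.i, w.r.j, false⟩, false⟩ : W) ∈ A ∧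
      (⟨⟨false, false, w.l.k⟩, ⟨false, false, w.r.k⟩, false⟩ : W) ∈ B ∧
      w = ⟨⟨w.l.i, w.l.j, false⟩, ⟨w.r.i, w.r.j, false⟩, false⟩ *
        ⟨⟨false, false, w.l.k⟩, ⟨false, false, w.r.k⟩, false⟩ := by decide +kernel
  exact fun w hw => ⟨_, (this w hw).1, _, (this w hw).2.1, (this w hw).2.2⟩

theorem decP : ∀ w ∈ P, ∃ p ∈ E', ∃ q ∈ B, w = p * q := by
  have : ∀ w ∈ P, (⟨w.l, ⟨w.r.i, w.r.j, false⟩, false⟩ : W) ∈ E' ∧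
      (⟨1, ⟨false, false, w.r.k⟩, false⟩ : W) ∈ B ∧
      w = ⟨w.l, ⟨w.r.i, w.r.j, false⟩, false⟩ * ⟨1, ⟨false, false, w.r.k⟩, false⟩ := by
    decide +kernel
  exact fun w hw => ⟨_, (this w hw).1, _, (this w hw).2.1, (this w hw).2.2⟩

theorem mem_J {w : W} : w ∈ J ↔ w.s = false := ⟨fun h => h.1, fun h => ⟨h, trivial, trivial⟩⟩

theorem f_Z : ∀ u ∈ Z, u = 1 ∨ u = z1 ∨ u = z2 ∨ u = zz := by decide +kernel
theorem f_Zc : ∀ u ∈ Z, ∀ y ∈ J, u * y = y * u := by decide +kernel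
theorem f_cz : ∀ w : W, w * zz = zz * w := by decide +kernel
theorem f_cz1 : ∀ w : W, w * z1 = z1 * w ↔ w ∈ J := by decide +kernel
theorem f_cb1 : ∀ w : W, w * b1 = b1 * w ↔ w ∈ P := by decide +kernel
theorem f_cJ : ∀ u : W, u * a1 = a1 * u → u * b1 = b1 * u → u * a2 = a2 * u →
    u * b2 = b2 * u → u ∈ Z := by decide +kernel
theorem f_cT : ∀ u ∈ Z, ∀ w : W, w.s = true → u * w = w * u → u = 1 ∨ u = zz := by
  decide +kernel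
theorem f_comm : ∀ α ∈ J, ∀ β ∈ J, α * β * (β * α)⁻¹ ∈ Z := by decide +kernel

theorem D_cent : ∀ p q x : D, p * q ≠ q * p → x * p = p * x → x * q = q * x → x ∈ DZ := by
  decide +kernel

theorem f_l {α β x : W} (hα : α ∈ J) (hβ : β ∈ J) (hx : x ∈ J) (h : α.l * β.l ≠ β.l * α.l)
    (h1 : x * α = α * x) (h2 : x * β = β * x) : x.l ∈ DZ := by
  obtain ⟨a, a', _⟩ := α
  obtain ⟨b, b', _⟩ := β
  obtain ⟨c, c', _⟩ := x
  obtain ⟨rfl, -⟩ := hα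
  obtain ⟨rfl, -⟩ := hβ
  obtain ⟨rfl, -⟩ := hx
  exact D_cent a b c h (congrArg Wr.l h1) (congrArg Wr.l h2)

theorem f_r {α β x : W} (hα : α ∈ J) (hβ : β ∈ J) (hx : x ∈ J) (h : α.r * β.r ≠ β.r * α.r)
    (h1 : x * α = α * x) (h2 : x * β = β * x) : x.r ∈ DZ := by
  obtain ⟨a, a', _⟩ := α
  obtain ⟨b, b', _⟩ := β
  obtain ⟨c, c', _⟩ := x
  obtain ⟨rfl, -⟩ := hα
  obtain ⟨rfl, -⟩ := hβ
  obtain ⟨rfl, -⟩ := hx
  exact D_cent a' b' c' h (congrArg Wr.r h1) (congrArg Wr.r h2)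

theorem f_nc : ∀ α ∈ J, ∀ β ∈ J,
    (α * β = z1 * (β * α) → α.l * β.l ≠ β.l * α.l) ∧
    (α * β = z2 * (β * α) → α.r * β.r ≠ β.r * α.r) ∧
    (α * β = zz * (β * α) → α.l * β.l ≠ β.l * α.l ∧ α.r * β.r ≠ β.r * α.r) ∧
    (α * β ≠ β * α → α.l * β.l ≠ β.l * α.l ∨ α.r * β.r ≠ β.r * α.r) := by decide +kernel

/-- The noncentral involutions of `J` with central second, resp. first, component. -/
def T1 (x : W) : Prop := x ∈ J ∧ x * x = 1 ∧ x.r ∈ DZ ∧ x ∉ Z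
def T2 (x : W) : Prop := x ∈ J ∧ x * x = 1 ∧ x.l ∈ DZ ∧ x ∉ Z

instance : DecidablePred T1 := fun x =>
  inferInstanceAs (Decidable (x ∈ J ∧ x * x = 1 ∧ x.r ∈ DZ ∧ x ∉ Z))
instance : DecidablePred T2 := fun x =>
  inferInstanceAs (Decidable (x ∈ J ∧ x * x = 1 ∧ x.l ∈ DZ ∧ x ∉ Z))

theorem f_T1 : ∀ u, T1 u → ∀ u', T1 u' → ∀ u'', T1 u'' →
    (u * u' = u' * u ↔ u' * u'' = u'' * u') → u⁻¹ * u'' ∈ Z := by decide +kernel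
theorem f_T2 : ∀ u, T2 u → ∀ u', T2 u' → ∀ u'', T2 u'' →
    (u * u' = u' * u ↔ u' * u'' = u'' * u') → u⁻¹ * u'' ∈ Z := by decide +kernel
theorem f_T1c : ∀ u, T1 u → u * a2 = a2 * u ∧ u * b2 = b2 * u := by decide +kernel
theorem f_T2c : ∀ u, T2 u → u * a1 = a1 * u ∧ u * b1 = b1 * u := by decide +kernel

theorem decB : ∀ w ∈ B, ∃ p, (T1 p ∨ p ∈ Z) ∧ p ∈ B ∧ ∃ q, (T2 q ∨ q ∈ Z) ∧ q ∈ B ∧ w = p * q := by
  have : ∀ w ∈ B, (T1 ⟨w.l, 1, false⟩ ∨ (⟨w.l, 1, false⟩ : W) ∈ Z) ∧ (⟨w.l, 1, false⟩ : W) ∈ B ∧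
      (T2 ⟨1, w.r, false⟩ ∨ (⟨1, w.r, false⟩ : W) ∈ Z) ∧ (⟨1, w.r, false⟩ : W) ∈ B ∧
      w = ⟨w.l, 1, false⟩ * ⟨1, w.r, false⟩ := by decide +kernel
  exact fun w hw => ⟨_, (this w hw).1, (this w hw).2.1, _, (this w hw).2.2⟩

theorem decE' : ∀ w ∈ E', ∃ p, (T1 p ∨ p ∈ Z) ∧ p ∈ E' ∧
    ∃ q, (T2 q ∨ q ∈ Z) ∧ q ∈ E' ∧ w = p * q := by
  have : ∀ w ∈ E', (T1 ⟨w.l, 1, false⟩ ∨ (⟨w.l, 1, false⟩ : W) ∈ Z) ∧
      (⟨w.l, 1, false⟩ : W) ∈ E' ∧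
      (T2 ⟨1, w.r, false⟩ ∨ (⟨1, w.r, false⟩ : W) ∈ Z) ∧ (⟨1, w.r, false⟩ : W) ∈ E' ∧
      w = ⟨w.l, 1, false⟩ * ⟨1, w.r, false⟩ := by decide +kernel
  exact fun w hw => ⟨_, (this w hw).1, (this w hw).2.1, _, (this w hw).2.2⟩

theorem Z_le_B : Z ≤ B := by
  have : ∀ w ∈ Z, w ∈ B := by decide +kernel
  exact this
theorem Z_le_E' : Z ≤ E' := by
  have : ∀ w ∈ Z, w ∈ E' := by decide +kernel
  exact this

theorem f_nB : ∀ w : W, ∀ x ∈ B, w * x * w⁻¹ ∈ B := by decide +kernel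
theorem f_nE' : ∀ w ∈ J, ∀ x ∈ E', w * x * w⁻¹ ∈ E' := by decide +kernel
theorem f_nJ : ∀ w : W, ∀ x ∈ J, w * x * w⁻¹ ∈ J := by decide +kernel
theorem f_cJZ : ∀ w ∈ J, ∀ x ∈ J, w * x * w⁻¹ * x⁻¹ ∈ Z := by decide +kernel

theorem f_S3 : ∀ u ∈ J, u * u = 1 → u ≠ 1 → u.l.k = u.r.k → (u.l ∈ DZ ∨ u.r ∈ DZ) → u ∈ A := by
  decide +kernel

/-- The analysis of the image of `P`. -/
theorem f_img : ∀ ζ ∈ B, ζ ∉ Z → ∀ β ∈ B, ∀ α ∈ J, α * α = 1 → α * β = z2 * (β * α) →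
    ζ * α = α * ζ → (ζ = b1 ∨ ζ = b1 * z1 ∨ ζ = b1 * z2 ∨ ζ = b1 * zz) ∧ α ∈ E' ∧ α.r.j = true := by
  decide +kernel

theorem decE'2 : ∀ w ∈ E', w = pw z1 w.l.i * pw b1 w.l.k * pw z2 w.r.i * pw a2 w.r.j := by
  decide +kernel

theorem decE : ∀ w ∈ E, w = pw z1 w.l.i * pw a1 w.l.j * pw z2 w.r.i * pw b2 w.r.k := by
  decide +kernel

/-- The five vectors of the case `β`. -/
def vv : Fin 5 → W := ![b1, b1 * z1, zz, z1 * a2, z1 * a2 * z2]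

theorem vv_inj : ∀ i j, vv i = vv j → i = j := by decide +kernel
theorem vv_mem : ∀ i, vv i ∈ E' := by decide +kernel
theorem vv_z2 : ∀ i j, vv i * vv j = z2 → (i = 3 ∧ j = 4) ∨ (i = 4 ∧ j = 3) := by decide +kernel
theorem vv_cases : ∀ x ∈ E', x = 1 ∨ (∃ i, x = vv i) ∨ x.l = 1 ∨ x = z1 ∨
    (x.l.k = true ∧ x.r ≠ 1) := by decide +kernel
theorem vv_dec : ∀ w ∈ E', w = pw (vv 0) (xor w.l.k (xor w.l.i w.r.j)) *
    pw (vv 1) (xor w.l.i w.r.j) * pw (vv 3) (xor w.r.j w.r.i) * pw (vv 4) w.r.i := by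
  decide +kernel

/-- The action of the element of order 3 on `E`. -/
def rho (w : W) : W := pw z1 w.l.i * pw a1 w.l.j * pw b2 w.r.i * pw (b2 * z2) w.r.k

theorem rho_mem : ∀ w ∈ E, rho w ∈ E := by decide +kernel
theorem rho_three : ∀ w ∈ E, rho (rho (rho w)) = w := by decide +kernel
theorem rho_cube : ∀ w ∈ E, w * rho w * rho (rho w) = 1 → w ∈ B2 := by decide +kernel
theorem rho_v : ∀ w ∈ B2, ∃ v ∈ B2, v * rho v = w := by decide +kernel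
theorem B2_cases : ∀ w ∈ B2, w = 1 ∨ w = z2 ∨ w = b2 ∨ w = b2 * z2 := by decide +kernel
theorem E_sq : ∀ w ∈ E, w * w = 1 := by decide +kernel

theorem f_P1 : ∀ w ∈ P1, ∀ w' ∈ P1, (w ∈ Z0 ↔ w' ∈ Z0) → (w * w = 1 ↔ w' * w' = 1) →
    ∀ w'' ∈ P1, (w' ∈ Z0 ↔ w'' ∈ Z0) → (w' * w' = 1 ↔ w'' * w'' = 1) →
    (w * w' = w' * w ↔ w' * w'' = w'' * w') → w⁻¹ * w'' ∈ Z0 := by decide +kernel

theorem decZ0 : ∀ w ∈ Z0, w = pw z1 w.l.i * pw a1 w.l.j * pw z2 w.r.i := by decide +kernel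
theorem f_cZ0 : ∀ w : W, w * z1 = z1 * w → w * a1 = a1 * w → w ∈ P1 := by decide +kernel
theorem f_P1c : ∀ w ∈ P1, ∀ c ∈ Z0, w * c = c * w := by decide +kernel
theorem Z0_sq : ∀ w ∈ Z0, w * w = 1 := by decide +kernel
theorem f_cE : ∀ w ∈ P1, w * b2 = b2 * w → w ∈ E := by decide +kernel
theorem f_ZZZ : ∀ x ∈ Z, ∀ y ∈ Z, ∀ w ∈ Z, x = 1 ∨ y = 1 ∨ w = 1 ∨ x = y ∨ x = w ∨ y = w ∨
    x * y = w := by decide +kernel

/-- In `J`, both components are nontrivial. -/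
def zt (w : W) : Prop := w.s = false → w.l ≠ 1 ∧ w.r ≠ 1

instance : DecidablePred zt := fun w =>
  inferInstanceAs (Decidable (w.s = false → w.l ≠ 1 ∧ w.r ≠ 1))

theorem f_s1 : ∀ γ ∈ J, zt γ → zt (γ * zz) → γ * γ = 1 → zt (γ * z1) := by decide +kernel

theorem f_s2 : ∀ γ : W, γ * γ = 1 → zt γ → zt (zz * γ) → ∀ η : W, η * η = 1 → zt η →
    zt (zz * η) → zt (γ * η * γ * η) → zt (zz * (γ * η * γ * η)) →
    zt (γ * (γ * η * γ * η)) → zt (η * (γ * η * γ * η)) → zt (zz * (γ * (γ * η * γ * η))) →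
    zt (zz * (η * (γ * η * γ * η))) → (γ * η * γ * η) * (γ * η * γ * η) = 1 → False := by
  decide +kernel

end CL.W4
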