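import Mathlib.GroupTheory.SpecificGroups.Dihedral
import Mathlib.GroupTheory.Perm.Fin
import Mathlib.Tactic.FinCases
import Mathlib.Algebra.Group.MinimalAxioms

/-! A concrete model of `D₈ ≀ C₂` and of `S₄ ≀ C₂`, with finite facts. -/

set_option autoImplicit false

namespace CL.W4

/-- The dihedral group of order 8: `⟨i, j, k⟩` stands for `z^i a^j b^k`. -/
structure D where
  i : Bool
  j : Bool
  k : Bool
deriving DecidableEq

instance : Mul D := ⟨fun x y => ⟨xor (xor x.i y.i) (x.k && y.j), xor x.j y.j, xor x.k y.k⟩⟩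
instance : One D := ⟨⟨false, false, false⟩⟩
instance : Inv D := ⟨fun x => ⟨xor x.i (x.j && x.k), x.j, x.k⟩⟩

instance (priority := high) decAllD (p : D → Prop) [DecidablePred p] : Decidable (∀ x, p x) :=
  decidable_of_iff (∀ i j k, p ⟨i, j, k⟩) ⟨fun h ⟨i, j, k⟩ => h i j k, fun h _ _ _ => h _⟩

instance (priority := high) decExD (p : D → Prop) [DecidablePred p] : Decidable (∃ x, p x) :=
  decidable_of_iff (∃ i j k, p ⟨i, j, k⟩)
    ⟨fun ⟨_, _, _, h⟩ => ⟨_, h⟩, fun ⟨⟨i, j, k⟩, h⟩ => ⟨i, j, k, h⟩⟩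

instance : Group D := Group.ofLeftAxioms (by decide) (by decide) (by decide)

instance : Fintype D :=
  Fintype.ofEquiv (Bool × Bool × Bool)
    ⟨fun x => ⟨x.1, x.2.1, x.2.2⟩, fun x => (x.i, x.j, x.k), fun _ => rfl, fun _ => rfl⟩

/-- The wreath product `X ≀ C₂`. -/
@[ext] structure Wr (X : Type) where
  l : X
  r : X
  s : Bool
deriving DecidableEq

section
variable {X Y : Type} [Group X] [Group Y]

instance : Mul (Wr X) :=
  ⟨fun x y => cond x.s ⟨x.l * y.r, x.r * y.l, !y.s⟩ ⟨x.l * y.l, x.r * y.r, y.s⟩⟩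
instance : One (Wr X) := ⟨⟨1, 1, false⟩⟩
instance : Inv (Wr X) := ⟨fun x => cond x.s ⟨x.r⁻¹, x.l⁻¹, true⟩ ⟨x.l⁻¹, x.r⁻¹, false⟩⟩

theorem Wr.mul_f (a b : X) (y : Wr X) : (⟨a, b, false⟩ * y : Wr X) = ⟨a * y.l, b * y.r, y.s⟩ := rfl
theorem Wr.mul_t (a b : X) (y : Wr X) : (⟨a, b, true⟩ * y : Wr X) = ⟨a * y.r, b * y.l, !y.s⟩ := rfl
theorem Wr.one_def : (1 : Wr X) = ⟨1, 1, false⟩ := rfl
theorem Wr.inv_f (a b : X) : (⟨a, b, false⟩ : Wr X)⁻¹ = ⟨a⁻¹, b⁻¹, false⟩ := rfl
theorem Wr.inv_t (a b : X) : (⟨a, b, true⟩ : Wr X)⁻¹ = ⟨b⁻¹, a⁻¹, true⟩ := rfl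

instance : Group (Wr X) := Group.ofLeftAxioms
  (by
    rintro ⟨a, b, _ | _⟩ ⟨c, d, _ | _⟩ ⟨e, f, _ | _⟩ <;>
      simp [Wr.mul_f, Wr.mul_t, mul_assoc])
  (by rintro ⟨a, b, c⟩; simp [Wr.one_def, Wr.mul_f])
  (by rintro ⟨a, b, _ | _⟩ <;> simp [Wr.one_def, Wr.mul_f, Wr.mul_t, Wr.inv_f, Wr.inv_t])

instance (priority := high) decAllWr (p : Wr D → Prop) [DecidablePred p] :
    Decidable (∀ x, p x) :=
  decidable_of_iff (∀ s l r, p ⟨l, r, s⟩) ⟨fun h ⟨l, r, s⟩ => h s l r, fun h _ _ _ => h _⟩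

instance (priority := high) decExWr (p : Wr D → Prop) [DecidablePred p] :
    Decidable (∃ x, p x) :=
  decidable_of_iff (∃ s l r, p ⟨l, r, s⟩)
    ⟨fun ⟨_, _, _, h⟩ => ⟨_, h⟩, fun ⟨⟨l, r, s⟩, h⟩ => ⟨s, l, r, h⟩⟩

instance [Fintype X] : Fintype (Wr X) :=
  Fintype.ofEquiv (X × X × Bool)
    ⟨fun x => ⟨x.1, x.2.1, x.2.2⟩, fun x => (x.l, x.r, x.s), fun _ => rfl, fun _ => rfl⟩

/-- Functoriality of the wreath product. -/
def Wr.map (f : X →* Y) : Wr X →* Wr Y :=
  MonoidHom.mk' (fun x => ⟨f x.l, f x.r, x.s⟩) (by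
    rintro ⟨a, b, _ | _⟩ ⟨c, d, e⟩ <;> simp [Wr.mul_f, Wr.mul_t])

theorem Wr.map_injective {f : X →* Y} (hf : Function.Injective f) :
    Function.Injective (Wr.map f) := by
  rintro ⟨a, b, c⟩ ⟨a', b', c'⟩ h
  have h' : (⟨f a, f b, c⟩ : Wr Y) = ⟨f a', f b', c'⟩ := h
  simp only [Wr.mk.injEq] at h' ⊢
  exact ⟨hf h'.1, hf h'.2.1, h'.2.2⟩

/-- The embedding of the second factor. -/
def Wr.inr : X →* Wr X := MonoidHom.mk' (fun x => ⟨1, x, false⟩) (by
  intro a b; simp [Wr.mul_f])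

theorem Wr.inr_injective : Function.Injective (Wr.inr : X →* Wr X) := by
  intro a b h
  have h' : (⟨1, a, false⟩ : Wr X) = ⟨1, b, false⟩ := h
  simpa using h'

/-- The product subgroup `U × V` of the base group. -/
def pr (U V : Subgroup X) : Subgroup (Wr X) where
  carrier := {w | w.s = false ∧ w.l ∈ U ∧ w.r ∈ V}
  one_mem' := ⟨rfl, U.one_mem, V.one_mem⟩
  mul_mem' := by
    rintro ⟨a, b, c⟩ ⟨a', b', c'⟩ ⟨rfl, h1, h2⟩ ⟨rfl, h3, h4⟩
    exact ⟨rfl, U.mul_mem h1 h3, V.mul_mem h2 h4⟩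
  inv_mem' := by
    rintro ⟨a, b, c⟩ ⟨rfl, h1, h2⟩
    exact ⟨rfl, U.inv_mem h1, V.inv_mem h2⟩

theorem mem_pr {U V : Subgroup X} {w : Wr X} : w ∈ pr U V ↔ w.s = false ∧ w.l ∈ U ∧ w.r ∈ V :=
  Iff.rfl

instance (U V : Subgroup X) [DecidablePred (· ∈ U)] [DecidablePred (· ∈ V)] :
    DecidablePred (· ∈ pr U V) := fun w =>
  inferInstanceAs (Decidable (w.s = false ∧ w.l ∈ U ∧ w.r ∈ V))

end

abbrev W := Wr D
abbrev S4 := Equiv.Perm (Fin 4)
abbrev M := Wr S4

/-- The subgroups of `D`: `⟨z, a⟩`, `⟨z, b⟩`, `⟨z⟩`, `D`, `1`. -/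
def DA : Subgroup D where
  carrier := {x | x.k = false}
  one_mem' := rfl
  mul_mem' := by intro a b; revert a b; simp only [Set.mem_ofPred_eq]; decide
  inv_mem' := by intro a; revert a; simp only [Set.mem_ofPred_eq]; decide

def DB : Subgroup D where
  carrier := {x | x.j = false}
  one_mem' := rfl
  mul_mem' := by intro a b; revert a b; simp only [Set.mem_ofPred_eq]; decide
  inv_mem' := by intro a; revert a; simp only [Set.mem_ofPred_eq]; decide

def DZ : Subgroup D where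
  carrier := {x | x.j = false ∧ x.k = false}
  one_mem' := ⟨rfl, rfl⟩
  mul_mem' := by intro a b; revert a b; simp only [Set.mem_ofPred_eq]; decide
  inv_mem' := by intro a; revert a; simp only [Set.mem_ofPred_eq]; decide

def DT : Subgroup D where
  carrier := {_x | True}
  one_mem' := trivial
  mul_mem' := fun _ _ => trivial
  inv_mem' := fun _ => trivial

def DO : Subgroup D where
  carrier := {x | x = 1}
  one_mem' := rfl
  mul_mem' := by rintro a b rfl rfl; exact mul_one _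
  inv_mem' := by rintro a rfl; exact inv_one

instance : DecidablePred (· ∈ DA) := fun x => inferInstanceAs (Decidable (x.k = false))
instance : DecidablePred (· ∈ DB) := fun x => inferInstanceAs (Decidable (x.j = false))
instance : DecidablePred (· ∈ DZ) := fun x =>
  inferInstanceAs (Decidable (x.j = false ∧ x.k = false))
instance : DecidablePred (· ∈ DT) := fun _ => inferInstanceAs (Decidable True)
instance : DecidablePred (· ∈ DO) := fun x => inferInstanceAs (Decidable (x = 1))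

abbrev J : Subgroup W := pr DT DT
abbrev A : Subgroup W := pr DA DA
abbrev B : Subgroup W := pr DB DB
abbrev E : Subgroup W := pr DA DB
abbrev E' : Subgroup W := pr DB DA
abbrev Z : Subgroup W := pr DZ DZ
abbrev P : Subgroup W := pr DB DT
abbrev P1 : Subgroup W := pr DA DT
abbrev Z0 : Subgroup W := pr DA DZ
abbrev R2 : Subgroup W := pr DO DT
abbrev A1 : Subgroup W := pr DA DO
abbrev B2 : Subgroup W := pr DO DB

def dz : D := ⟨true, false, false⟩
def da : D := ⟨false, true, false⟩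
def db : D := ⟨false, false, true⟩

def z1 : W := ⟨dz, 1, false⟩
def a1 : W := ⟨da, 1, false⟩
def b1 : W := ⟨db, 1, false⟩
def z2 : W := ⟨1, dz, false⟩
def a2 : W := ⟨1, da, false⟩
def b2 : W := ⟨1, db, false⟩
def sw : W := ⟨1, 1, true⟩
def zz : W := ⟨dz, dz, false⟩

/-- `D` inside `S₄`. -/
def δf (x : D) : S4 :=
  cond x.i (Equiv.swap 0 1 * Equiv.swap 2 3) 1 * cond x.j (Equiv.swap 0 2 * Equiv.swap 1 3) 1 *
    cond x.k (Equiv.swap 0 1) 1

def δ : D →* S4 := MonoidHom.mk' δf (by decide +kernel)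

theorem δ_injective : Function.Injective δ := by
  have : ∀ x y : D, δf x = δf y → x = y := by decide +kernel
  exact this

def emb : W →* M := Wr.map δ

theorem emb_injective : Function.Injective emb := Wr.map_injective δ_injective

/-- The 3-cycle with `Y z Y⁻¹ = a`. -/
def Y : S4 := Equiv.swap 0 1 * Equiv.swap 0 2

def Y1 : M := ⟨Y, 1, false⟩
def Y2 : M := ⟨1, Y, false⟩

/-- The sign map counting the letters `b`. -/
def sgB : W →* Multiplicative (ZMod 2) :=
  MonoidHom.mk' (fun w => cond (xor w.l.k w.r.k) (Multiplicative.ofAdd 1) 1) (by decide +kernel)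

/-- The map onto the top group. -/
def sgS : W →* Multiplicative (ZMod 2) :=
  MonoidHom.mk' (fun w => cond w.s (Multiplicative.ofAdd 1) 1) (by decide +kernel)

theorem sgB_eq_one : ∀ w : W, sgB w = 1 → w.l.k = w.r.k := by decide +kernel
theorem sgS_eq_one : ∀ w : W, sgS w = 1 → w.s = false := by decide +kernel
theorem sgB_b1 : sgB b1 ≠ 1 := by decide +kernel
theorem sgS_sw : sgS sw ≠ 1 := by decide +kernel

/-- `D₈` onto the second factor. -/
def dihf : DihedralGroup 4 → W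
  | .r i => (a2 * b2) ^ i.val
  | .sr i => a2 * (a2 * b2) ^ i.val

def dih : DihedralGroup 4 →* W := MonoidHom.mk' dihf (by decide +kernel)

theorem dih_injective : Function.Injective dih := by
  have : ∀ x y, dihf x = dihf y → x = y := by decide +kernel
  exact this

theorem dih_mem : ∀ x, dih x ∈ R2 := by
  have : ∀ x, dihf x ∈ R2 := by decide +kernel
  exact this

theorem dih_surj : ∀ w ∈ R2, ∃ x, dih x = w := by
  have : ∀ w ∈ R2, ∃ x, dihf x = w := by decide +kernel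
  exact this

/-- `w ^ c` for a Boolean `c`. -/
def pw (w : W) (c : Bool) : W := cond c w 1

theorem card_W : Nat.card W = 2 ^ 7 := by
  rw [Nat.card_eq_fintype_card]; decide +kernel

end CL.W4
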